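import Cfsg.Agent.McLFusion.Main
import Cfsg.Agent.McLInvol.Data
import Cfsg.Agent.Leech.MatCode

/-!
Computations for the involutions of McL.
-/

set_option autoImplicit false
set_option Elab.async false

namespace Cfsg.Agent.McLInvol

open Cfsg Cfsg.Agent.Golay Cfsg.Agent.SchurCert Cfsg.Agent.AutCert Cfsg.Agent.McLFusion

/-- The two conjugating elements, with the codes of the inverses. -/
def conjBy : List (ℕ × ℕ) := [m22FusVals.getD 7 (0, 0), m22FusVals.getD 11 (0, 0)]

/-- The step check for one conjugate. -/
def stepB (j : ℕ) : Bool :=
  let n := conjSteps.getD j 0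
  let g := conjBy.getD (n % 2) (0, 0)
  Nat.ble (n / 2) j && Nat.beq (permMul (permMul g.1 (conjList.getD (n / 2) 0)) g.2)
    (conjList.getD (j + 1) 0)

theorem conj_check : conjList.length = 1155 ∧ Leech.incB (Leech.sortKeys conjList) = true ∧
    (Leech.sortKeys conjList).length = 1155 ∧
    conjList.getD 0 0 = m22FusCert.gens.getD 0 permOne ∧
    (List.range 1154).all stepB = true := by
  decide +kernel

theorem layer_check : ((m22FusCert.toCert.layer permMul permOne 7).all fun x =>
    Nat.beq x permOne || !Nat.beq (permMul x x) permOne || conjList.any (Nat.beq x)) = true := by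
  decide +kernel

theorem fixed_count : (keys2025.filter fun k => Nat.beq (Leech.applyCols (sylCols.getD 0 []) k) k).length
    ≤ 105 := by
  decide +kernel

end Cfsg.Agent.McLInvol
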