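import Cfsg.Agent.McLFusion.Main
import Cfsg.Agent.McLInvol.Checks

/-!
The involutions of McL: one class, with centralisers of order at most 40320, from the conjugates
inside M22 and the 105 fixed vectors among 2025.
-/

set_option autoImplicit false
set_option Elab.async false

namespace Cfsg.Agent.McLInvol

open Cfsg Cfsg.Agent.Golay Cfsg.Agent.SchurCert Cfsg.Agent.AutCert Cfsg.Agent.McLFusion
open scoped Pointwise

/-- The generators of the Sylow subgroup of M22. -/
noncomputable def gen22 : ℕ → Spor.M22 := elemAt Spor.M22 m22FusGens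

/-- Further elements of M22. -/
noncomputable def val22 : ℕ → Spor.M22 := elemAt Spor.M22 m22FusVals

theorem enc_gen22 : ∀ i, (permCode Spor.M22).enc (gen22 i) = m22FusCert.gens.getD i permOne :=
  enc_elemAt (List.all_eq_true.2 fun x hx => List.all_eq_true.1 S5168.tested.1 x
      (List.mem_append_left _ (List.mem_append_left _ hx)))
    fun x hx => S5168.mem_group x (List.mem_append_left _ (List.mem_append_left _ hx))

theorem enc_val22 : ∀ i,
    (permCode Spor.M22).enc (val22 i) = (m22FusVals.map Prod.fst).getD i permOne :=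
  enc_elemAt (List.all_eq_true.2 fun x hx => List.all_eq_true.1 S5168.tested.1 x
      (List.mem_append_right _ hx))
    fun x hx => S5168.mem_group x (List.mem_append_right _ hx)

theorem conjBy_mem : ∀ g < 2, ∃ σ : Spor.M22,
    (permCode Spor.M22).enc σ = (conjBy.getD g (0, 0)).1 ∧
      (permCode Spor.M22).enc σ⁻¹ = (conjBy.getD g (0, 0)).2 := by
  have key : ∀ n < m22FusVals.length, ∃ σ : Spor.M22,
      (permCode Spor.M22).enc σ = (m22FusVals.getD n (0, 0)).1 ∧
        (permCode Spor.M22).enc σ⁻¹ = (m22FusVals.getD n (0, 0)).2 := by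
    intro n hn
    have hmem : m22FusVals[n] ∈ m22FusVals := List.getElem_mem hn
    rw [List.getD_eq_getElem _ _ hn]
    have hv := List.all_eq_true.1 S5168.tested.1 _ (List.mem_append_right _ hmem)
    refine ⟨⟨_, S5168.mem_group _ (List.mem_append_right _ hmem)⟩, encPerm_permOfPair hv, ?_⟩
    have hb : validPair (m22FusVals[n].2, m22FusVals[n].1) = true := by
      have : (m22FusVals.all fun x => validPair (x.2, x.1)) = true := by decide +kernel
      exact List.all_eq_true.1 this _ hmem
    refine Eq.trans (congrArg encPerm ?_) (encPerm_permOfPair hb)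
    refine Equiv.ext fun p => ?_
    show (permOfPair m22FusVals[n])⁻¹ p = _
    rw [permOfPair_apply hb, Equiv.Perm.inv_eq_iff_eq, permOfPair_apply hv]
    exact ((validPair_inv hv p).2).symm
  intro g hg
  interval_cases g
  · exact key 7 (by decide +kernel)
  · exact key 11 (by decide +kernel)

/-- The central involution of the Sylow subgroup. -/
noncomputable def z22 : Spor.M22 := gen22 0

theorem exists_conj : ∀ c ∈ conjList, ∃ σ : Spor.M22,
    (permCode Spor.M22).enc (σ * z22 * σ⁻¹) = c := by
  obtain ⟨hlen, -, -, h0, hall⟩ := conj_check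
  have key : ∀ j < 1155, ∃ σ : Spor.M22,
      (permCode Spor.M22).enc (σ * z22 * σ⁻¹) = conjList.getD j 0 := by
    intro j
    induction j using Nat.strong_induction_on with
    | _ j ih =>
      intro hj
      rcases j with _ | j
      · exact ⟨1, by rw [h0, one_mul, inv_one, mul_one]; exact enc_gen22 0⟩
      · have hs := List.all_eq_true.1 hall j (List.mem_range.2 (by omega))
        simp only [stepB, Bool.and_eq_true, Nat.ble_eq] at hs
        obtain ⟨hle, he⟩ := hs
        obtain ⟨σ, hσ⟩ := ih _ (Nat.lt_succ_of_le hle) (by omega)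
        obtain ⟨τ, hτ, hτ'⟩ := conjBy_mem (conjSteps.getD j 0 % 2) (Nat.mod_lt _ two_pos)
        refine ⟨τ * σ, ?_⟩
        rw [show τ * σ * z22 * (τ * σ)⁻¹ = τ * (σ * z22 * σ⁻¹) * τ⁻¹ by group,
          (permCode Spor.M22).enc_mul, (permCode Spor.M22).enc_mul, hτ, hτ', hσ]
        exact Nat.eq_of_beq_eq_true he
  intro c hc
  obtain ⟨j, hj, rfl⟩ := List.getElem_of_mem hc
  rw [← List.getD_eq_getElem _ 0 hj]
  exact key j (hlen ▸ hj)

theorem nodup_conjList : conjList.toFinset.card = 1155 := by
  obtain ⟨-, hinc, hlen, -, -⟩ := conj_check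
  refine le_antisymm ((List.toFinset_card_le _).trans_eq conj_check.1) ?_
  rw [← hlen, ← List.toFinset_card_of_nodup (Leech.nodup_of_incB hinc)]
  refine Finset.card_le_card fun k hk => List.mem_toFinset.2 ?_
  have hk' := Leech.mem_mergeAll 17 _ (show k ∈ Leech.mergeAll 17 _ from List.mem_toFinset.1 hk)
  rw [List.mem_flatten] at hk'
  obtain ⟨s, hs, hks⟩ := hk'
  obtain ⟨k', hk'', rfl⟩ := List.mem_map.mp hs
  rw [List.mem_singleton] at hks
  exact hks ▸ hk''

/-- The Sylow subgroup inside M22. -/
noncomputable def syl22 : Subgroup Spor.M22 := initGroup gen22 7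

theorem conj_z_of_mem {x : Spor.M22} (hx : x ∈ syl22) (h : orderOf x = 2) :
    ∃ σ : Spor.M22, σ * z22 * σ⁻¹ = x := by
  have : Finite Spor.M22 := Nat.finite_of_card_ne_zero (by rw [S5168.card_group]; norm_num)
  have hl := (m22FusCert.mem_iff gen22 enc_gen22 m22Fus_presOK x).1 hx
  have hc := List.all_eq_true.1 layer_check _ hl
  simp only [Bool.or_eq_true, Bool.not_eq_true', List.any_eq_true] at hc
  rcases hc with (hc | hc) | ⟨c, hc, he⟩
  · exfalso
    have : x = 1 := (permCode Spor.M22).enc_inj
      ((Nat.eq_of_beq_eq_true hc).trans (permCode Spor.M22).enc_one.symm)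
    rw [this, orderOf_one] at h
    exact absurd h (by norm_num)
  · exfalso
    have h2 : x * x = 1 := by rw [← pow_two, ← h]; exact pow_orderOf_eq_one x
    refine absurd hc (Bool.not_eq_false _ ▸ ?_)
    rw [show permMul ((permCode Spor.M22).enc x) ((permCode Spor.M22).enc x) =
      (permCode Spor.M22).enc (x * x) from ((permCode Spor.M22).enc_mul x x).symm, h2,
      (permCode Spor.M22).enc_one]
    exact Nat.beq_refl _
  · obtain ⟨σ, hσ⟩ := exists_conj c hc
    exact ⟨σ, (permCode Spor.M22).enc_inj (hσ.trans (Nat.eq_of_beq_eq_true he).symm)⟩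

/-- The involution of McL. -/
noncomputable def tEl : Leech.mcl := m22Emb z22

theorem z22_order : orderOf z22 = 2 := by
  refine orderOf_eq_prime ((permCode Spor.M22).enc_inj ?_) fun h => ?_
  · rw [pow_two, (permCode Spor.M22).enc_mul, (permCode Spor.M22).enc_one]
    rw [show (permCode Spor.M22).enc z22 = _ from enc_gen22 0]
    decide +kernel
  · have := congrArg (permCode Spor.M22).enc h
    rw [show (permCode Spor.M22).enc z22 = _ from enc_gen22 0, (permCode Spor.M22).enc_one] at this
    exact absurd this (by decide +kernel)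

theorem tEl_order : orderOf tEl = 2 :=
  (orderOf_injective m22Emb m22Emb_injective z22).trans z22_order

/-- Every involution is conjugate to the chosen one. -/
theorem isConj_tEl {y : Leech.mcl} (hy : orderOf y = 2) : IsConj tEl y := by
  have := Leech.finite_Co0
  have : Fact (Nat.Prime 2) := ⟨Nat.prime_two⟩
  have : Finite Spor.M22 := Nat.finite_of_card_ne_zero (by rw [S5168.card_group]; norm_num)
  have hc0 : Nat.card syl22 = 128 :=
    (m22FusCert.card_eq gen22 enc_gen22 m22Fus_presOK).trans (by decide)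
  have hcP : Nat.card (syl22.map m22Emb) = 128 :=
    (Subgroup.card_map_of_injective m22Emb_injective).trans hc0
  have hodd : ¬ 2 ∣ (syl22.map m22Emb).index := by
    have h := Subgroup.index_mul_card (syl22.map m22Emb)
    rw [hcP, Leech.card_mcl] at h
    omega
  set S₀ : Sylow 2 Leech.mcl := (IsPGroup.of_card (n := 7) hcP).toSylow hodd
  have hp : IsPGroup 2 (Subgroup.zpowers y) :=
    IsPGroup.of_card (n := 1) (by rw [Nat.card_zpowers, hy, pow_one])
  obtain ⟨Q, hQ⟩ := hp.exists_le_sylow
  obtain ⟨g, hg⟩ := MulAction.exists_smul_eq Leech.mcl S₀ Q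
  have hyQ : y ∈ (Q : Subgroup Leech.mcl) := hQ (Subgroup.mem_zpowers y)
  rw [← hg, Sylow.coe_subgroup_smul, Subgroup.mem_pointwise_smul_iff_inv_smul_mem,
    MulAut.smul_def, ← map_inv, MulAut.conj_apply, inv_inv] at hyQ
  obtain ⟨x, hx, hxy⟩ := hyQ
  have hxo : orderOf x = 2 := by
    rw [← orderOf_injective m22Emb m22Emb_injective, hxy, ← hy]
    have := orderOf_injective (MulAut.conj g⁻¹).toMonoidHom (MulAut.conj g⁻¹).injective y
    simpa [MulAut.conj_apply] using this
  obtain ⟨σ, hσ⟩ := conj_z_of_mem hx hxo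
  refine isConj_iff.2 ⟨g * m22Emb σ, ?_⟩
  have e := congrArg m22Emb hσ
  rw [map_mul, map_mul, map_inv, hxy] at e
  calc g * m22Emb σ * tEl * (g * m22Emb σ)⁻¹ = g * (m22Emb σ * m22Emb z22 * (m22Emb σ)⁻¹) * g⁻¹ := by
        rw [tEl]; group
    _ = y := by rw [e]; group

theorem isConj_of_order_two {x y : Leech.mcl} (hx : orderOf x = 2) (hy : orderOf y = 2) :
    IsConj x y :=
  (isConj_tEl hx).symm.trans (isConj_tEl hy)

/-- The involution maps vectors by the code of the permutation. -/
theorem tEl_apply (y : leechLattice) :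
    ((tEl : Co0) • y).1 = pullVec ((m22FusGens.getD 0 (permOne, permOne)).2) y.1 := by
  have hv := (cols_check 0 (by norm_num)).2
  have hmemi : permOfPair (m22FusGens.getD 0 (permOne, permOne)) ∈ Spor.M22 := by
    rw [List.getD_eq_getElem _ _ (show 0 < m22FusGens.length by decide)]
    exact S5168.mem_group _ (List.mem_append_left _ (List.mem_append_left _ (List.getElem_mem _)))
  funext p
  show (Leech.m22Hom z22 • y).1 p = _
  rw [Leech.m22Hom_smul, show z22 = ⟨_, hmemi⟩ from dif_pos hmemi]
  show y.1 ((permOfPair _)⁻¹ p) = y.1 (codeFun _ p)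
  refine congrArg y.1 (Equiv.Perm.inv_eq_iff_eq.2 ?_)
  rw [permOfPair_apply hv]
  exact ((validPair_inv hv p).2).symm

attribute [local irreducible] Leech.keyOf in
theorem ncard_fixed_le {u : Leech.mcl} (hu : orderOf u = 2) :
    {x ∈ Leech.set2025 | (u : Co0) • x = x}.ncard ≤ 105 := by
  have hfin : Leech.set2025.Finite :=
    Set.finite_of_ncard_pos (by rw [Leech.count2025]; norm_num)
  obtain ⟨g, hg⟩ := isConj_iff.1 (isConj_tEl hu)
  have hsub : {x ∈ Leech.set2025 | (u : Co0) • x = x} ⊆ (fun x => (g : Co0) • x) ''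
      {x ∈ Leech.set2025 | (tEl : Co0) • x = x} := by
    rintro x ⟨hx, hux⟩
    refine ⟨(g⁻¹ : Leech.mcl).1 • x, ⟨Leech.set2025_inv (g⁻¹).2 hx, ?_⟩, ?_⟩
    · rw [← mul_smul, ← Subgroup.coe_mul, show tEl * g⁻¹ = g⁻¹ * u by rw [← hg]; group,
        Subgroup.coe_mul, mul_smul, hux]
    · show (g : Co0) • _ = x
      rw [← mul_smul, ← Subgroup.coe_mul, mul_inv_cancel, Subgroup.coe_one, one_smul]
  refine (Set.ncard_le_ncard hsub ((hfin.subset fun x hx => hx.1).image _)).trans
    ((Set.ncard_image_le (hfin.subset fun x hx => hx.1)).trans ?_)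
  obtain ⟨hinj, hmem⟩ := keyed
  have hmaps : ∀ x ∈ {x ∈ Leech.set2025 | (tEl : Co0) • x = x}, Leech.keyOf x.1 ∈
      (↑(keys2025.filter fun k => Nat.beq (Leech.applyCols (sylCols.getD 0 []) k) k).toFinset :
        Set ℕ) := by
    rintro x ⟨hx, htx⟩
    rw [Finset.mem_coe, List.mem_toFinset, List.mem_filter]
    refine ⟨hmem x hx, ?_⟩
    have hk := keyOf_map tEl_apply (cols_check 0 (by norm_num)).1 x
    rw [htx] at hk
    rw [Leech.applyCols_eq, ← hk]
    exact Nat.beq_refl _
  refine (Set.ncard_le_ncard_of_injOn _ hmaps (hinj.mono fun x hx => hx.1)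
    (Finset.finite_toSet _)).trans ?_
  rw [Set.ncard_coe_finset]
  exact (List.toFinset_card_le _).trans fixed_count

open Classical in
/-- An element of M22 conjugating the central involution to the one with the given code. -/
noncomputable def conjElt (c : ℕ) : Spor.M22 :=
  if h : ∃ σ : Spor.M22, (permCode Spor.M22).enc (σ * z22 * σ⁻¹) = c then h.choose else 1

theorem card_centralizer_le :
    Nat.card (Subgroup.centralizer ({tEl} : Set Leech.mcl)) ≤ 40320 := by
  classical
  have := Leech.finite_Co0
  set D := MulAction.orbit (ConjAct Leech.mcl) tEl with hD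
  have hmul : D.ncard * Nat.card (Subgroup.centralizer ({tEl} : Set Leech.mcl)) = 898128000 := by
    have h := Subgroup.index_mul_card (MulAction.stabilizer (ConjAct Leech.mcl) tEl)
    rw [MulAction.index_stabilizer] at h
    have hs : Nat.card (MulAction.stabilizer (ConjAct Leech.mcl) tEl) =
        Nat.card (Subgroup.centralizer ({tEl} : Set Leech.mcl)) := by
      rw [ConjAct.stabilizer_eq_centralizer]
      rfl
    rw [hs] at h
    exact h.trans Leech.card_mcl
  have hfinS : Leech.set2025.Finite :=
    Set.finite_of_ncard_pos (by rw [Leech.count2025]; norm_num)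
  have hfinD : D.Finite := Set.toFinite _
  have hcount : hfinS.toFinset.card * 1155 ≤ hfinD.toFinset.card * 105 := by
    refine Finset.card_mul_le_card_mul (fun (x : leechLattice) (u : Leech.mcl) => (u : Co0) • x = x)
      (fun x hx => ?_) (fun u hu => ?_)
    · rw [Set.Finite.mem_toFinset] at hx
      obtain ⟨k, hk, rfl⟩ := Leech.transitive2025 hx
      set k' : Leech.mcl := ⟨k, hk⟩
      rw [← nodup_conjList]
      refine Finset.card_le_card_of_injOn
        (fun c => k' * m22Emb (conjElt c * z22 * (conjElt c)⁻¹) * k'⁻¹) (fun c _ => ?_) ?_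
      · rw [Finset.mem_coe, Finset.mem_bipartiteAbove, Set.Finite.mem_toFinset]
        refine ⟨⟨ConjAct.toConjAct (k' * m22Emb (conjElt c)), ?_⟩, ?_⟩
        · show ConjAct.toConjAct (k' * m22Emb (conjElt c)) • tEl = _
          rw [ConjAct.toConjAct_smul]; simp only [map_mul, map_inv, tEl]
          group
        · have hfx : ∀ σ : Spor.M22, (m22Emb σ : Co0) • Leech.pZ = Leech.pZ := fun σ =>
            Leech.m22G_fix_tv 4 (-4) 0 Leech.pZ rfl _ ⟨σ, rfl⟩
          show ((k' : Co0) * (m22Emb _ : Co0) * (k' : Co0)⁻¹) • k • Leech.pZ = k • Leech.pZ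
          rw [mul_smul, inv_smul_smul, mul_smul, hfx]
      · intro a ha b hb hab
        rw [Finset.mem_coe, List.mem_toFinset] at ha hb
        have e := m22Emb_injective (mul_left_cancel (mul_right_cancel hab))
        have hspec : ∀ c ∈ conjList,
            (permCode Spor.M22).enc (conjElt c * z22 * (conjElt c)⁻¹) = c := fun c hc => by
          rw [conjElt, dif_pos (exists_conj c hc)]
          exact (exists_conj c hc).choose_spec
        rw [← hspec a ha, ← hspec b hb, e]
    · rw [Set.Finite.mem_toFinset] at hu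
      obtain ⟨g, hg⟩ := hu
      have huo : orderOf u = 2 := by
        rw [← hg, ← tEl_order]
        exact orderOf_injective (MulAut.conj (ConjAct.ofConjAct g)).toMonoidHom
          (MulAut.conj _).injective tEl
      refine le_trans (le_of_eq ?_) (ncard_fixed_le huo)
      rw [← Set.ncard_coe_finset]
      congr 1
      ext x
      simp [Finset.mem_bipartiteBelow]
  rw [← Set.ncard_eq_toFinset_card _ hfinS, ← Set.ncard_eq_toFinset_card _ hfinD,
    Leech.count2025] at hcount
  nlinarith

end Cfsg.Agent.McLInvol
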