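import Cfsg.Agent.McLInvol.CoverChecks

/-!
The centraliser of an involution in McL is a double cover of the alternating group of degree 8
that does not split: it permutes 35 keys like the bisections of eight points.
-/

set_option autoImplicit false
set_option Elab.async false

namespace Cfsg.Agent.McLInvol

open Cfsg Cfsg.Agent.Golay Cfsg.Agent.SchurCert Cfsg.Agent.McLFusion
open Equiv

theorem colsOf_eq {g : Co0} {cols : List ℕ} (hl : cols.length = 24)
    (h : ∀ x : leechLattice, Leech.keyOf (g • x).1 = xorSel cols (Leech.keyOf x.1)) :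
    Leech.colsOf g = cols := by
  refine List.ext_getElem (by rw [Leech.length_colsOf, hl]) fun j hj hj' => ?_
  have hd : j < Leech.dualL.length := by rw [Leech.colsOf, List.length_map] at hj; exact hj
  have hk : Leech.keyOf (Leech.dualL[j]).1 = 2 ^ j := by
    have := congrArg (fun l : List ℕ => l[j]?) Leech.dualL_keys
    simp only [List.getElem?_map, List.getElem?_eq_getElem hd, Option.map_some] at this
    rw [List.getElem?_eq_getElem (by rw [List.length_range]; omega), Option.map_some,
      List.getElem_range] at this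
    exact Option.some.inj this
  simp only [Leech.colsOf, List.getElem_map]
  rw [h, hk]
  exact Leech.xorSel_two_pow cols j hj'

theorem neg_notMem : Leech.negCo0 ∉ Leech.mcl := fun h => by
  have h' := congrArg (fun v : leechLattice => v.1 none) (Leech.mem_mcl.1 h).1
  rw [Leech.negCo0_smul] at h'
  exact absurd h' (by decide +kernel)

theorem mcl_ext {a b : Leech.mcl} (h : Leech.matEnc a.1 = Leech.matEnc b.1) : a = b := by
  rcases Leech.eq_or_neg_of_matEnc h with e | e
  · exact Subtype.ext e
  · exact absurd (by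
      rw [show Leech.negCo0 = b.1⁻¹ * a.1 by rw [e, inv_mul_cancel_left]]
      exact mul_mem (inv_mem b.2) a.2) neg_notMem

theorem matEnc_tEl : Leech.matEnc (tEl : Co0) = prodVals.getD 3 0 := by
  obtain ⟨hb, -, -⟩ := prod_check
  simp only [baseB, Bool.and_eq_true] at hb
  rw [Nat.eq_of_beq_eq_true hb.1.2, Leech.matEnc,
    colsOf_eq (Nat.eq_of_beq_eq_true hb.2) fun x =>
      keyOf_map tEl_apply (cols_check 0 (by norm_num)).1 x]

theorem exists_elem : ∀ i < prodVals.length, ∃ g : Leech.mcl,
    Leech.matEnc (g : Co0) = prodVals.getD i 0 := by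
  obtain ⟨hb, hlen, hall⟩ := prod_check
  intro i
  induction i using Nat.strong_induction_on with
  | _ i ih =>
    intro hi
    by_cases h3 : i < 3
    · simp only [baseB, Bool.and_eq_true, List.all_eq_true, List.mem_range] at hb
      obtain ⟨⟨⟨hb1, hgl⟩, -⟩, -⟩ := hb
      obtain ⟨h1, h2⟩ := hb1 i h3
      have hlt : i < Leech.Trees.t2025.gens.length := by rw [Nat.eq_of_beq_eq_true hgl]; exact h3
      have hmem := List.getElem_mem hlt
      rw [List.getD_eq_getElem _ _ hlt] at h1 h2
      have hg := Leech.certs2025.1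
      have hacts := List.all_eq_true.1 hg _ hmem
      rw [Bool.and_eq_true] at hacts
      refine ⟨⟨_, Leech.fixConf_le_mcl (Leech.mem_fixConf.mpr
        (Leech.le_stabilizer_of_gensB hg _ hmem))⟩, ?_⟩
      rw [Nat.eq_of_beq_eq_true h1, Leech.matEnc,
        Leech.colsOf_eq_of_acts hacts.1 (Nat.eq_of_beq_eq_true h2)]
    · by_cases h4 : i = 3
      · exact ⟨tEl, h4 ▸ matEnc_tEl⟩
      · obtain ⟨j, rfl⟩ : ∃ j, i = j + 4 := ⟨i - 4, by omega⟩
        have hs := List.all_eq_true.1 hall j (List.mem_range.2 (by omega))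
        simp only [prodB, Bool.and_eq_true, Nat.blt_eq] at hs
        obtain ⟨⟨ha, hb'⟩, he⟩ := hs
        obtain ⟨a, hga⟩ := ih _ ha (by omega)
        obtain ⟨b, hgb⟩ := ih _ hb' (by omega)
        exact ⟨a * b, by rw [Subgroup.coe_mul, Leech.matEnc_mul, hga, hgb,
          Nat.eq_of_beq_eq_true he]⟩

/-- The pairs respecting the relation. -/
def compat : Submonoid (Leech.mcl × Perm (Fin 8)) where
  carrier := {p | ∀ (x : leechLattice) (b : Finset (Fin 8)), (Leech.keyOf x.1, b) ∈ relList →
    (Leech.keyOf ((p.1 : Co0) • x).1, b.image p.2) ∈ relList}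
  one_mem' := fun x b h => by
    show (Leech.keyOf ((1 : Co0) • x).1, b.image ⇑(1 : Perm (Fin 8))) ∈ relList
    rw [one_smul, Perm.coe_one, Finset.image_id]
    exact h
  mul_mem' := fun {p q} hp hq x b h => by
    show (Leech.keyOf (((p.1 : Co0) * (q.1 : Co0)) • x).1, b.image ⇑(p.2 * q.2)) ∈ relList
    rw [mul_smul, Perm.coe_mul, ← Finset.image_image]
    exact hp _ _ (hq x b h)

theorem mem_compat {g : Leech.mcl} {σ : Perm (Fin 8)} {v : ℕ}
    (hg : Leech.matEnc (g : Co0) = v) (h : compatB (Leech.unpackCols 24 v) σ = true) :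
    (g, σ) ∈ compat := fun x b hb => by
  have hc := List.all_eq_true.1 h _ hb
  rw [List.contains_iff_mem, ← hg, Leech.unpack_matEnc, Leech.applyCols_eq] at hc
  rw [Leech.keyOf_smul_eq]
  exact hc

/-- The notion is invariant under isomorphism. -/
theorem isNonsplitDoubleCover_congr {H H' A : Type*} [Group H] [Group H'] [Group A] (e : H ≃* H')
    (h : IsNonsplitDoubleCover H A) : IsNonsplitDoubleCover H' A := by
  obtain ⟨hc, ⟨f⟩, hs⟩ := h
  have hz : (Subgroup.center H).map e.toMonoidHom = Subgroup.center H' := by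
    ext x
    rw [Subgroup.mem_map_equiv, Subgroup.mem_center_iff, Subgroup.mem_center_iff]
    refine ⟨fun hx g => e.symm.injective ?_, fun hx g => e.injective ?_⟩
    · rw [map_mul, map_mul]; exact hx _
    · rw [map_mul, map_mul, MulEquiv.apply_symm_apply]; exact hx _
  refine ⟨?_, ⟨(QuotientGroup.congr _ _ e hz).symm.trans f⟩, fun L hL => hs (L.comap e.toMonoidHom) ?_⟩
  · rw [← hc, ← hz]
    exact (Nat.card_congr (e.subgroupMap _).toEquiv).symm
  · refine ⟨fun a b hab => ?_, fun x => ?_⟩
    · have hm : ∀ z : Subgroup.center H, e z ∈ Subgroup.center H' := fun z => by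
        rw [← hz]; exact Subgroup.mem_map_of_mem e.toMonoidHom z.2
      have := @hL.1 (⟨e a.1, hm a.1⟩, ⟨e a.2, a.2.2⟩) (⟨e b.1, hm b.1⟩, ⟨e b.2, b.2.2⟩)
        (by simpa using congrArg e hab)
      exact Prod.ext (Subtype.ext (e.injective (congrArg (fun p => p.1.1) this)))
        (Subtype.ext (e.injective (congrArg (fun p => p.2.1) this)))
    · obtain ⟨⟨c, l⟩, hcl⟩ := hL.2 (e x)
      have hcmem : (c : H') ∈ (Subgroup.center H).map e.toMonoidHom := by
        rw [hz]; exact c.2
      refine ⟨(⟨e.symm c, Subgroup.mem_map_equiv.1 hcmem⟩,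
        ⟨e.symm l, by
          show e (e.symm l) ∈ L
          rw [MulEquiv.apply_symm_apply]; exact l.2⟩), e.injective ?_⟩
      simpa using hcl

/-- The square root of the involution. -/
noncomputable def root22 : Spor.M22 := gen22 2 * gen22 4

theorem root22_sq : root22 * root22 = z22 := by
  apply (permCode Spor.M22).enc_inj
  rw [root22, (permCode Spor.M22).enc_mul, (permCode Spor.M22).enc_mul, enc_gen22, enc_gen22,
    show (permCode Spor.M22).enc z22 = _ from enc_gen22 0]
  decide +kernel

/-- The centraliser. -/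
abbrev cent : Subgroup Leech.mcl := Subgroup.centralizer ({tEl} : Set Leech.mcl)

theorem mem_cent {g : Leech.mcl} : g ∈ cent ↔ g * tEl = tEl * g := by
  rw [Subgroup.mem_centralizer_singleton_iff]

theorem isNonsplitDoubleCover : IsNonsplitDoubleCover cent (alternatingGroup (Fin 8)) := by
  classical
  have := Leech.finite_Co0
  have hout : ∀ x : Fin 8, x ≠ 0 → x ≠ 1 → ∃ g : Leech.mcl,
      g ∈ cent ∧ (g, Alt.cyc3 0 1 x) ∈ compat := fun x h0 h1 => by
    obtain ⟨hlt, hcomm, hc⟩ := out_check x h0 h1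
    obtain ⟨g, hg⟩ := exists_elem _ hlt
    refine ⟨g, mem_cent.2 (mcl_ext ?_), mem_compat hg hc⟩
    rw [Subgroup.coe_mul, Subgroup.coe_mul, Leech.matEnc_mul, Leech.matEnc_mul, hg, matEnc_tEl]
    exact hcomm
  choose! gx hgx using hout
  set S : Set (Leech.mcl × Perm (Fin 8)) :=
    insert (tEl, 1) ((fun x => (gx x, Alt.cyc3 0 1 x)) '' {x : Fin 8 | x ≠ 0 ∧ x ≠ 1}) with hS
  set K := Subgroup.closure S with hK
  have hKc : K ≤ cent.prod (alternatingGroup (Fin 8)) := by
    rw [hK, Subgroup.closure_le]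
    rintro p (rfl | ⟨x, ⟨h0, h1⟩, rfl⟩)
    · exact ⟨mem_cent.2 rfl, one_mem _⟩
    · exact ⟨(hgx x h0 h1).1, Alt.cyc3_mem (by decide) h0.symm h1.symm⟩
  have hKP : ∀ p ∈ K, p ∈ compat := fun p hp => by
    rw [hK, ← Subgroup.mem_toSubmonoid, Subgroup.closure_toSubmonoid_of_finite] at hp
    refine Submonoid.closure_le.2 ?_ hp
    rintro p (rfl | ⟨x, ⟨h0, h1⟩, rfl⟩)
    · exact mem_compat matEnc_tEl t_compat
    · exact (hgx x h0 h1).2
  let fstK : K →* cent :=
    ((MonoidHom.fst _ _).comp K.subtype).codRestrict cent fun p => (hKc p.2).1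
  let sndK : K →* alternatingGroup (Fin 8) :=
    ((MonoidHom.snd _ _).comp K.subtype).codRestrict _ fun p => (hKc p.2).2
  have hsnd : Function.Surjective sndK := by
    rintro ⟨σ, hσ⟩
    have hle : alternatingGroup (Fin 8) ≤ K.map (MonoidHom.snd _ _) := by
      rw [← Alt.closure_cyc3_pair (show (0 : Fin 8) ≠ 1 by decide), Subgroup.closure_le]
      rintro _ ⟨x, h0, h1, rfl⟩
      exact ⟨_, Subgroup.subset_closure (Or.inr ⟨x, ⟨h0, h1⟩, rfl⟩), rfl⟩
    obtain ⟨p, hp, rfl⟩ := hle hσ
    exact ⟨⟨p, hp⟩, rfl⟩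
  have hsimp : IsSimpleGroup (alternatingGroup (Fin 8)) := alternatingGroup.isSimpleGroup (by simp)
  have hfst : Function.Injective fstK := by
    rw [← MonoidHom.ker_eq_bot_iff]
    rcases hsimp.eq_bot_or_eq_top_of_normal _
      (Subgroup.Normal.map (inferInstance : fstK.ker.Normal) sndK hsnd) with h | h
    · refine eq_bot_iff.2 fun p hp => Subgroup.mem_bot.2 (Subtype.ext (Prod.ext ?_ ?_))
      · exact congrArg Subtype.val (MonoidHom.mem_ker.1 hp)
      · have : sndK p ∈ fstK.ker.map sndK := ⟨p, hp, rfl⟩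
        rw [h, Subgroup.mem_bot] at this
        exact congrArg Subtype.val this
    · exfalso
      obtain ⟨p, hp, hpσ⟩ : (⟨_, Alt.cyc3_mem (show (0 : Fin 8) ≠ 1 by decide)
          (show (0 : Fin 8) ≠ 2 by decide) (show (1 : Fin 8) ≠ 2 by decide)⟩ :
            alternatingGroup (Fin 8)) ∈ fstK.ker.map sndK := h ▸ Subgroup.mem_top _
      obtain ⟨⟨k, b⟩, hr, hd⟩ := List.any_eq_true.1 moved_pair
      simp only [Bool.and_eq_true, decide_eq_true_eq, Bool.not_eq_true'] at hd
      have h1 : (p.1.1 : Co0) = 1 :=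
        congrArg (fun g : cent => ((g : Leech.mcl) : Co0)) (MonoidHom.mem_ker.1 hp)
      have h2 : p.1.2 = Alt.cyc3 (0 : Fin 8) 1 2 := congrArg Subtype.val hpσ
      have hrel := hKP p.1 p.2 (Leech.selVec Leech.dualL k) b
        (by rw [Leech.keyOf_sel hd.1]; exact hr)
      rw [h1, one_smul, Leech.keyOf_sel hd.1, h2] at hrel
      exact Bool.eq_false_iff.1 hd.2 (List.contains_iff_mem.2 hrel)
  have hA : Nat.card (alternatingGroup (Fin 8)) = 20160 := by
    rw [nat_card_alternatingGroup, Nat.card_fin]; rfl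
  let tK : K := ⟨(tEl, 1), Subgroup.subset_closure (Set.mem_insert _ _)⟩
  have htK : tK ∈ sndK.ker := MonoidHom.mem_ker.2 rfl
  have hne : tK ≠ 1 := fun h => by
    have h' : tEl = 1 := congrArg (fun p : K => p.1.1) h
    have := tEl_order
    rw [h', orderOf_one] at this
    exact absurd this (by norm_num)
  have hcard : Nat.card K = 20160 * Nat.card sndK.ker := by
    rw [← Subgroup.index_mul_card sndK.ker, Subgroup.index_ker,
      MonoidHom.range_eq_top.2 hsnd, Subgroup.card_top, hA]
  have h2 : 2 ≤ Nat.card sndK.ker := by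
    have : Nontrivial sndK.ker := ⟨⟨⟨tK, htK⟩, 1, fun h => hne (congrArg Subtype.val h)⟩⟩
    exact Finite.one_lt_card
  have hle : Nat.card K ≤ Nat.card cent := Nat.card_le_card_of_injective fstK hfst
  have hC : Nat.card cent ≤ 40320 := card_centralizer_le
  have hKk : Nat.card sndK.ker = 2 := by omega
  have heq : Nat.card K = Nat.card cent := by omega
  let e : K ≃* cent := MulEquiv.ofBijective fstK
    ((Nat.bijective_iff_injective_and_card _).2 ⟨hfst, heq⟩)
  let φ : cent →* alternatingGroup (Fin 8) := sndK.comp e.symm.toMonoidHom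
  have hφ : Function.Surjective φ := hsnd.comp e.symm.surjective
  have hφk : Nat.card φ.ker = 2 := by
    have h1 : Nat.card cent = 20160 * Nat.card φ.ker := by
      rw [← Subgroup.index_mul_card φ.ker, Subgroup.index_ker, MonoidHom.range_eq_top.2 hφ,
        Subgroup.card_top, hA]
    omega
  set t : cent := ⟨tEl, mem_cent.2 rfl⟩ with ht
  have htc : t ∈ Subgroup.center cent := Subgroup.mem_center_iff.2 fun g =>
    Subtype.ext (mem_cent.1 g.2)
  have ht1 : t ≠ 1 := fun h => hne (Subtype.ext (Prod.ext (congrArg Subtype.val h) rfl))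
  have hcle : Subgroup.center cent ≤ φ.ker := fun c hc => by
    have hc' : φ c ∈ Subgroup.center (alternatingGroup (Fin 8)) :=
      Subgroup.mem_center_iff.2 fun a => by
        obtain ⟨g, rfl⟩ := hφ a
        rw [← map_mul, ← map_mul, Subgroup.mem_center_iff.1 hc g]
    rw [alternatingGroup.center_eq_bot (by simp), Subgroup.mem_bot] at hc'
    exact hc'
  have hc2 : 2 ≤ Nat.card (Subgroup.center cent) := by
    have : Nontrivial (Subgroup.center cent) :=
      ⟨⟨⟨t, htc⟩, 1, fun h => ht1 (congrArg Subtype.val h)⟩⟩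
    exact Finite.one_lt_card
  have hceq : Subgroup.center cent = φ.ker :=
    Subgroup.eq_of_le_of_card_ge hcle (by rw [hφk]; exact hc2)
  refine ⟨by rw [hceq, hφk], ⟨(QuotientGroup.quotientMulEquivOfEq hceq).trans
    (QuotientGroup.quotientKerEquivOfSurjective φ hφ)⟩, fun L hL => ?_⟩
  -- a square in a split cover lies in the complement
  have hroot : m22Emb root22 ∈ cent := mem_cent.2 (by
    rw [tEl, ← root22_sq, map_mul, mul_assoc])
  set r : cent := ⟨m22Emb root22, hroot⟩
  have hr : r * r = t := Subtype.ext (by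
    show m22Emb root22 * m22Emb root22 = tEl
    rw [← map_mul, root22_sq]; rfl)
  obtain ⟨⟨c, l⟩, hcl⟩ := hL.2 r
  simp only at hcl
  have hcen : Nat.card (Subgroup.center cent) = 2 :=
    (congrArg (fun H : Subgroup cent => Nat.card H) hceq).trans hφk
  have hcc : (c : cent) * c = 1 := by
    rw [← pow_two, ← Subgroup.coe_pow]
    refine congrArg Subtype.val (orderOf_dvd_iff_pow_eq_one.1 ?_)
    exact hcen ▸ orderOf_dvd_natCard (G := Subgroup.center cent) c
  have hll : t = (l : cent) * l := by
    have hcomm : (l : cent) * c = c * l := Subgroup.mem_center_iff.1 c.2 l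
    rw [← hr, ← hcl]
    calc (c : cent) * l * (c * l) = c * ((l : cent) * c) * l := by group
      _ = c * (c * l) * l := by rw [hcomm]
      _ = (c : cent) * c * (l * l) := by group
      _ = _ := by rw [hcc, one_mul]
  have hmem : t ∈ Subgroup.center cent ⊓ L := ⟨htc, hll ▸ mul_mem l.2 l.2⟩
  rw [(Subgroup.IsComplement'.disjoint hL).eq_bot, Subgroup.mem_bot] at hmem
  exact ht1 hmem

end Cfsg.Agent.McLInvol
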