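import Cfsg.Agent.McLInvol.Classes
import Cfsg.Agent.Alt.ThreeCycle

/-!
Computations for the centraliser of an involution in McL.
-/

set_option autoImplicit false
set_option Elab.async false

namespace Cfsg.Agent.McLInvol

open Cfsg Cfsg.Agent.Golay Cfsg.Agent.SchurCert Cfsg.Agent.McLFusion
open Equiv

/-- Positions of the six elements matching three-cycles, by the moved point. -/
def outPos : List ℕ := [0, 0, 98, 103, 107, 112, 116, 119]

/-- The four first matrices. -/
def baseB : Bool :=
  ((List.range 3).all fun i => Nat.beq (prodVals.getD i 0)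
      (Leech.packCols ((Leech.Trees.t2025.gens.getD i ([], [])).2)) &&
      Nat.beq ((Leech.Trees.t2025.gens.getD i ([], [])).2).length 24) &&
    Nat.beq Leech.Trees.t2025.gens.length 3 &&
    Nat.beq (prodVals.getD 3 0) (Leech.packCols (sylCols.getD 0 [])) &&
    Nat.beq (sylCols.getD 0 []).length 24

/-- The check of one product. -/
def prodB (j : ℕ) : Bool :=
  let s := prodSteps.getD j (0, 0)
  Nat.blt s.1 (j + 4) && Nat.blt s.2 (j + 4) &&
    Nat.beq (Leech.matMul (prodVals.getD s.1 0) (prodVals.getD s.2 0)) (prodVals.getD (j + 4) 0)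

theorem prod_check : baseB = true ∧ prodVals.length = prodSteps.length + 4 ∧
    (List.range prodSteps.length).all prodB = true := by
  decide +kernel

/-- The keys with the sets of four points. -/
def relList : List (ℕ × Finset (Fin 8)) :=
  keyPairs.map fun p => (p.1, Finset.univ.filter fun i : Fin 8 => p.2.testBit i.val)

/-- A matrix and a permutation respect the relation. -/
def compatB (cols : List ℕ) (σ : Perm (Fin 8)) : Bool :=
  relList.all fun p => relList.contains (Leech.applyCols cols p.1, p.2.image σ)

theorem out_check : ∀ x : Fin 8, x ≠ 0 → x ≠ 1 →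
    outPos.getD x.val 0 < prodVals.length ∧
    Leech.matMul (prodVals.getD (outPos.getD x.val 0) 0) (prodVals.getD 3 0) =
      Leech.matMul (prodVals.getD 3 0) (prodVals.getD (outPos.getD x.val 0) 0) ∧
    compatB (Leech.unpackCols 24 (prodVals.getD (outPos.getD x.val 0) 0)) (Alt.cyc3 0 1 x) = true := by
  decide +kernel

theorem t_compat : compatB (Leech.unpackCols 24 (prodVals.getD 3 0)) 1 = true := by
  decide +kernel

theorem moved_pair : (relList.any fun p =>
    decide (p.1 < 2 ^ 24) && !relList.contains (p.1, p.2.image (Alt.cyc3 (0 : Fin 8) 1 2))) = true := by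
  decide +kernel

end Cfsg.Agent.McLInvol
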